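import Cfsg.Agent.H843.Ore.Coset
import Cfsg.Agent.H134.Sq.Base

/-!
# Coset lemmas for products of two squares, and for fixed point free elements

`Cov a b V W` (helper843): the section `V / W` is generated by commutators with `a` and `b`.

* `coset_sq` : sections of exponent two; every element of the coset `a ^ 2 * b ^ 2 * N` is
  `(a u) ^ 2 * (b w) ^ 2` modulo the bottom, `u, w ∈ N`;
* `coset_conj` : if `c` alone acts without fixed points on the sections, every element of `c N` is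
  a conjugate of `c` under `N` (modulo the bottom); so `g ∈ c₁ c₂ N` is a product of `c₁` and a
  conjugate of `c₂` (`coset_mul`).
-/

set_option autoImplicit false

namespace Cfsg.Agent.H134.Sq

open H843.Ore
open scoped commutatorElement

variable {G : Type*} [Group G]

/-- **One section of exponent two with trivial bottom.** -/
theorem step_bot_sq {a b : G} {V : Subgroup G} [hV : V.Normal] (h2 : ∀ x ∈ V, x * x = 1)
    (hc : Cov a b V ⊥) {x : G} (hx : x ∈ V) :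
    ∃ v ∈ V, ∃ w ∈ V, (a * v) ^ 2 * (b * w) ^ 2 = a ^ 2 * b ^ 2 * x := by
  have hn : ∀ g : G, ∀ y ∈ V, g * y * g⁻¹ ∈ V := fun g y hy => hV.conj_mem y hy g
  have hn' : ∀ g : G, ∀ y ∈ V, g⁻¹ * y * g ∈ V := fun g y hy => by
    have := hV.conj_mem y hy g⁻¹
    rwa [inv_inv] at this
  have hinv : ∀ y ∈ V, y⁻¹ = y := fun y hy => inv_eq_of_mul_eq_one_left (h2 y hy)
  obtain ⟨p, hp, q, hq, hpq⟩ := hc (b ^ 2 * x * (b ^ 2)⁻¹) (hn _ _ hx)
  rw [Subgroup.mem_bot, inv_mul_eq_one] at hpq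
  refine ⟨a * p * a⁻¹, hn a p hp, b⁻¹ * q * b, hn' b q hq, ?_⟩
  have e1 : ⁅p, a⁆ = p * (a * p * a⁻¹) := by
    have : a * p⁻¹ * a⁻¹ = a * p * a⁻¹ := by rw [hinv p hp]
    calc ⁅p, a⁆ = p * (a * p⁻¹ * a⁻¹) := by rw [commutatorElement_def]; group
      _ = _ := by rw [this]
  have e2 : ⁅q, b⁆ = q * (b * q * b⁻¹) := by
    have : b * q⁻¹ * b⁻¹ = b * q * b⁻¹ := by rw [hinv q hq]
    calc ⁅q, b⁆ = q * (b * q⁻¹ * b⁻¹) := by rw [commutatorElement_def]; group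
      _ = _ := by rw [this]
  have e3 : b ^ 2 * (b⁻¹ * (b⁻¹ * q * b) * b * (b⁻¹ * q * b)) * (b ^ 2)⁻¹ = ⁅q, b⁆ := by
    rw [e2, pow_two]
    group
  have hxx : x = (b ^ 2)⁻¹ * (⁅p, a⁆ * ⁅q, b⁆) * b ^ 2 := by
    rw [← hpq]; group
  calc (a * (a * p * a⁻¹)) ^ 2 * (b * (b⁻¹ * q * b)) ^ 2
      = a ^ 2 * (p * (a * p * a⁻¹)) * (b ^ 2 * (b⁻¹ * (b⁻¹ * q * b) * b * (b⁻¹ * q * b))) := by
        simp only [pow_two]; group
    _ = a ^ 2 * ⁅p, a⁆ * (b ^ 2 * (b⁻¹ * (b⁻¹ * q * b) * b * (b⁻¹ * q * b)) * (b ^ 2)⁻¹) *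
          b ^ 2 := by rw [e1]; group
    _ = a ^ 2 * ⁅p, a⁆ * ⁅q, b⁆ * b ^ 2 := by rw [e3]
    _ = a ^ 2 * b ^ 2 * ((b ^ 2)⁻¹ * (⁅p, a⁆ * ⁅q, b⁆) * b ^ 2) := by group
    _ = a ^ 2 * b ^ 2 * x := by rw [← hxx]

/-- **One section of exponent two.** -/
theorem step_sq {a b : G} {V W : Subgroup G} [V.Normal] [W.Normal] (h2 : ∀ x ∈ V, x * x ∈ W) (hc : Cov a b V W) {x : G}
    (hx : x ∈ V) :
    ∃ v ∈ V, ∃ w ∈ V, ((a * v) ^ 2 * (b * w) ^ 2)⁻¹ * (a ^ 2 * b ^ 2 * x) ∈ W := by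
  have : (V.map (QuotientGroup.mk' W)).Normal :=
    Subgroup.Normal.map inferInstance _ (QuotientGroup.mk'_surjective W)
  obtain ⟨v', ⟨v, hv, rfl⟩, w', ⟨w, hw, rfl⟩, h⟩ := step_bot_sq (a := QuotientGroup.mk' W a)
    (b := QuotientGroup.mk' W b) (V := V.map (QuotientGroup.mk' W)) (by
      rintro _ ⟨x, hx, rfl⟩
      rw [← map_mul]
      exact (QuotientGroup.eq_one_iff _).2 (h2 x hx)) hc.map (x := QuotientGroup.mk' W x)
      (Subgroup.mem_map_of_mem _ hx)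
  refine ⟨v, hv, w, hw, ?_⟩
  simp only [← map_mul, ← map_pow] at h
  exact QuotientGroup.eq.1 h

/-- **The coset lemma for squares.** -/
theorem coset_sq {a b : G} (N : ℕ → Subgroup G) [hN : ∀ i, (N i).Normal] (k : ℕ)
    (hmono : ∀ i < k, N i ≤ N (i + 1))
    (hcent : ∀ i < k, ∀ x ∈ N (i + 1), ∀ y ∈ N k, ⁅x, y⁆ ∈ N i)
    (h2 : ∀ i < k, ∀ x ∈ N (i + 1), x * x ∈ N i)
    (hcov : ∀ i < k, Cov a b (N (i + 1)) (N i)) {n : G} (hn : n ∈ N k) :
    ∃ u ∈ N k, ∃ w ∈ N k, ((a * u) ^ 2 * (b * w) ^ 2)⁻¹ * (a ^ 2 * b ^ 2 * n) ∈ N 0 := by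
  have hle : ∀ j ≤ k, ∀ i ≤ j, N i ≤ N j := by
    intro j
    induction j with
    | zero =>
      intro _ i hi
      rw [Nat.le_zero.1 hi]
    | succ j ih =>
      intro hj i hi
      rcases Nat.lt_or_ge i (j + 1) with h | h
      · exact le_trans (ih (by omega) i (by omega)) (hmono j (by omega))
      · rw [le_antisymm hi h]
  have main : ∀ d ≤ k, ∃ u ∈ N k, ∃ w ∈ N k,
      ((a * u) ^ 2 * (b * w) ^ 2)⁻¹ * (a ^ 2 * b ^ 2 * n) ∈ N (k - d) := by
    intro d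
    induction d with
    | zero =>
      intro _
      refine ⟨1, one_mem _, 1, one_mem _, ?_⟩
      rw [mul_one, mul_one, inv_mul_cancel_left, Nat.sub_zero]
      exact hn
    | succ d ih =>
      intro hd
      obtain ⟨u, hu, w, hw, h⟩ := ih (by omega)
      set i := k - (d + 1) with hi
      have hik : i < k := by omega
      have hi1 : k - d = i + 1 := by omega
      rw [hi1] at h
      have hc : Cov (a * u) (b * w) (N (i + 1)) (N i) :=
        (hcov i hik).congr (fun x hx => hcent i hik x hx u hu) (fun x hx => hcent i hik x hx w hw)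
      obtain ⟨v, hv, t, ht, h3⟩ := step_sq (h2 i hik) hc h
      refine ⟨u * v, (N k).mul_mem hu (hle k le_rfl (i + 1) hik hv), w * t,
        (N k).mul_mem hw (hle k le_rfl (i + 1) hik ht), ?_⟩
      rw [← mul_assoc a, ← mul_assoc b]
      rwa [mul_inv_cancel_left] at h3
  have := main k le_rfl
  rwa [Nat.sub_self] at this

/-- The coset lemma for squares with trivial bottom. -/
theorem isP_coset_sq {a b : G} (N : ℕ → Subgroup G) [hN : ∀ i, (N i).Normal] (k : ℕ)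
    (h0 : N 0 = ⊥) (hmono : ∀ i < k, N i ≤ N (i + 1))
    (hcent : ∀ i < k, ∀ x ∈ N (i + 1), ∀ y ∈ N k, ⁅x, y⁆ ∈ N i)
    (h2 : ∀ i < k, ∀ x ∈ N (i + 1), x * x ∈ N i)
    (hcov : ∀ i < k, Cov a b (N (i + 1)) (N i)) {n : G} (hn : n ∈ N k) :
    IsP 2 (a ^ 2 * b ^ 2 * n) := by
  obtain ⟨u, -, w, -, h⟩ := coset_sq N k hmono hcent h2 hcov hn
  rw [h0, Subgroup.mem_bot, inv_mul_eq_one] at h
  exact ⟨a * u, b * w, h.symm⟩

/-! ### Fixed point free elements -/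

/-- The section `V / W` consists of commutators with `c`. -/
def CovOne (c : G) (V W : Subgroup G) : Prop := ∀ x ∈ V, ∃ q ∈ V, x⁻¹ * ⁅q, c⁆ ∈ W

theorem CovOne.cov_right {c : G} (a : G) {V W : Subgroup G} (h : CovOne c V W) :
    Cov a c V W := by
  intro x hx
  obtain ⟨q, hq, h1⟩ := h x hx
  refine ⟨1, one_mem _, q, hq, ?_⟩
  rwa [commutatorElement_one_left, one_mul]

theorem CovOne.cov_left {c : G} (b : G) {V W : Subgroup G} (h : CovOne c V W) :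
    Cov c b V W := by
  intro x hx
  obtain ⟨q, hq, h1⟩ := h x hx
  refine ⟨q, hq, 1, one_mem _, ?_⟩
  rwa [commutatorElement_one_left, mul_one]

/-- `c` without fixed points on the finite section `V / W`. -/
theorem covOne_of_fix {c : G} {V W : Subgroup G} [hVn : V.Normal] [hWn : W.Normal] [Finite V]
    (hfix : ∀ x ∈ V, ⁅x, c⁆ ∈ W → x ∈ W) : CovOne c V W := by
  classical
  have hcm : ∀ y ∈ V, ⁅y, c⁆ ∈ V := fun y hy => by
    have : ⁅y, c⁆ = y * (c * y⁻¹ * c⁻¹) := by simp only [commutatorElement_def]; group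
    rw [this]
    exact V.mul_mem hy (hVn.conj_mem _ (V.inv_mem hy) c)
  -- the map on the quotient
  let U : Subgroup V := W.subgroupOf V
  have : U.Normal := Subgroup.Normal.subgroupOf hWn V
  let f : V ⧸ U → V ⧸ U := fun t =>
    (⟨⁅(t.out : G), c⁆, hcm _ t.out.2⟩ : V)
  have hf : ∀ y (hy : y ∈ V), f ((⟨y, hy⟩ : V) : V ⧸ U) = ((⟨⁅y, c⁆, hcm y hy⟩ : V) : V ⧸ U) := by
    intro y hy
    set t : V ⧸ U := ((⟨y, hy⟩ : V) : V ⧸ U) with ht
    have h1 : ((t.out : V) : V ⧸ U) = ((⟨y, hy⟩ : V) : V ⧸ U) := by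
      rw [← ht]; exact QuotientGroup.out_eq' t
    rw [QuotientGroup.eq] at h1
    have h2 : ((t.out : G))⁻¹ * y ∈ W := h1
    show ((⟨⁅(t.out : G), c⁆, hcm _ t.out.2⟩ : V) : V ⧸ U) = _
    rw [QuotientGroup.eq]
    show (⁅(t.out : G), c⁆)⁻¹ * ⁅y, c⁆ ∈ W
    set o : G := (t.out : G) with ho
    set r := o⁻¹ * y with hr
    have hy' : y = o * r := by rw [hr]; group
    rw [hy']
    have : ⁅o, c⁆⁻¹ * ⁅o * r, c⁆ = ⁅o, c⁆⁻¹ * (o * (r * (c * r⁻¹ * c⁻¹)) * o⁻¹) * ⁅o, c⁆ := by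
      simp only [commutatorElement_def]; group
    rw [this]
    have h3 : r * (c * r⁻¹ * c⁻¹) ∈ W := W.mul_mem h2 (hWn.conj_mem _ (W.inv_mem h2) c)
    have h4 := hWn.conj_mem _ (hWn.conj_mem _ h3 o) ⁅o, c⁆⁻¹
    rwa [inv_inv] at h4
  have hinj : Function.Injective f := by
    intro s t
    obtain ⟨⟨x, hx⟩, rfl⟩ := QuotientGroup.mk_surjective s
    obtain ⟨⟨y, hy⟩, rfl⟩ := QuotientGroup.mk_surjective t
    intro h
    rw [hf, hf, QuotientGroup.eq] at h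
    have h1 : ⁅x, c⁆⁻¹ * ⁅y, c⁆ ∈ W := h
    rw [QuotientGroup.eq]
    show x⁻¹ * y ∈ W
    apply hfix _ (V.mul_mem (V.inv_mem hx) hy)
    -- `⁅x⁻¹ y, c⁆ = x⁻¹ (y c y⁻¹ c⁻¹)(c x c⁻¹ ...)`
    set A := ⁅x, c⁆ with hA
    set B := ⁅y, c⁆ with hB
    have e : ⁅x⁻¹ * y, c⁆ = x⁻¹ * (B * (c * x * c⁻¹)) := by
      rw [hB]; simp only [commutatorElement_def]; group
    have e2 : c * x * c⁻¹ = A⁻¹ * x := by
      rw [hA]; simp only [commutatorElement_def]; group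
    rw [e, e2]
    have h5 : B * A⁻¹ ∈ W := by
      have := hWn.conj_mem _ h1 A
      rwa [show A * (A⁻¹ * B) * A⁻¹ = B * A⁻¹ by group] at this
    have := hWn.conj_mem _ h5 x⁻¹
    rwa [show x⁻¹ * (B * A⁻¹) * x⁻¹⁻¹ = x⁻¹ * (B * (A⁻¹ * x)) by group] at this
  have hsurj : Function.Surjective f := Finite.surjective_of_injective hinj
  intro x hx
  obtain ⟨t, ht⟩ := hsurj ((⟨x, hx⟩ : V) : V ⧸ U)
  obtain ⟨⟨y, hy⟩, rfl⟩ := QuotientGroup.mk_surjective t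
  refine ⟨y, hy, ?_⟩
  rw [hf, eq_comm, QuotientGroup.eq] at ht
  exact ht

/-- **The conjugacy coset lemma**: `c` fixed point free on the sections, then `c N` is one class
under `N`. -/
theorem coset_conj {c : G} (N : ℕ → Subgroup G) [hN : ∀ i, (N i).Normal] (k : ℕ)
    (hmono : ∀ i < k, N i ≤ N (i + 1))
    (hcov : ∀ i < k, CovOne c (N (i + 1)) (N i)) {n : G} (hn : n ∈ N k) :
    ∃ w ∈ N k, (w * c * w⁻¹)⁻¹ * (c * n) ∈ N 0 := by
  have hle : ∀ j ≤ k, ∀ i ≤ j, N i ≤ N j := by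
    intro j
    induction j with
    | zero =>
      intro _ i hi
      rw [Nat.le_zero.1 hi]
    | succ j ih =>
      intro hj i hi
      rcases Nat.lt_or_ge i (j + 1) with h | h
      · exact le_trans (ih (by omega) i (by omega)) (hmono j (by omega))
      · rw [le_antisymm hi h]
  have main : ∀ d ≤ k, ∃ w ∈ N k, (w * c * w⁻¹)⁻¹ * (c * n) ∈ N (k - d) := by
    intro d
    induction d with
    | zero =>
      intro _
      refine ⟨1, one_mem _, ?_⟩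
      rw [one_mul, inv_one, mul_one, inv_mul_cancel_left, Nat.sub_zero]
      exact hn
    | succ d ih =>
      intro hd
      obtain ⟨w, hw, h⟩ := ih (by omega)
      set i := k - (d + 1) with hi
      have hik : i < k := by omega
      have hi1 : k - d = i + 1 := by omega
      rw [hi1] at h
      -- `c n = (w c w⁻¹) x`, `x ∈ N (i+1)`; conjugate back by `w`
      set x := (w * c * w⁻¹)⁻¹ * (c * n) with hx
      have hx' : c * (w⁻¹ * x * w) * c⁻¹ ∈ N (i + 1) := by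
        have h1 := (hN (i + 1)).conj_mem x h w⁻¹
        rw [inv_inv] at h1
        exact (hN (i + 1)).conj_mem _ h1 c
      obtain ⟨q, hq, h3⟩ := hcov i hik _ hx'
      refine ⟨w * q, (N k).mul_mem hw (hle k le_rfl (i + 1) hik hq), ?_⟩
      have e1 : c * n = (w * c * w⁻¹) * x := by rw [hx]; group
      set y := c * (w⁻¹ * x * w) * c⁻¹ with hy
      have e2 : x = w * (c⁻¹ * y * c) * w⁻¹ := by rw [hy]; group
      rw [e1, e2]
      -- `(w q c q⁻¹ w⁻¹)⁻¹ (w c w⁻¹ · w c⁻¹ y c w⁻¹) = w (q c q⁻¹)⁻¹ (y c) w⁻¹`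
      have e3 : (w * q * c * (w * q)⁻¹)⁻¹ * (w * c * w⁻¹ * (w * (c⁻¹ * y * c) * w⁻¹))
          = w * ((q * c * q⁻¹)⁻¹ * (y * c)) * w⁻¹ := by group
      rw [e3]
      have e4 : (q * c * q⁻¹)⁻¹ * (y * c) = c⁻¹ * (y⁻¹ * ⁅q, c⁆)⁻¹ * c := by
        simp only [commutatorElement_def]; group
      rw [e4]
      have h5 := (hN i).conj_mem _ ((N i).inv_mem h3) c⁻¹
      rw [inv_inv] at h5
      exact (hN i).conj_mem _ h5 w
  have := main k le_rfl
  rwa [Nat.sub_self] at this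

/-- **Every element of the coset `c₁ c₂ N` is a product of `c₁` and an `N`-conjugate of `c₂`**, if
`c₂` is fixed point free on the sections. -/
theorem coset_mul {c₁ c₂ : G} (N : ℕ → Subgroup G) [hN : ∀ i, (N i).Normal] (k : ℕ)
    (h0 : N 0 = ⊥) (hmono : ∀ i < k, N i ≤ N (i + 1))
    (hcov : ∀ i < k, CovOne c₂ (N (i + 1)) (N i)) {n : G} (hn : n ∈ N k) :
    ∃ w ∈ N k, c₁ * c₂ * n = c₁ * (w * c₂ * w⁻¹) := by
  obtain ⟨w, hw, h⟩ := coset_conj N k hmono hcov hn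
  rw [h0, Subgroup.mem_bot, inv_mul_eq_one] at h
  exact ⟨w, hw, by rw [h, mul_assoc]⟩

end Cfsg.Agent.H134.Sq
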