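import Cfsg.Agent.H6.ORE.Extra
import Cfsg.Agent.H134.Sq.Base

/-!
# The extraspecial coset lemma for products of two squares

`Q` extraspecial with centre `⟨z⟩`, `z` central in `H` (`H6.ORE.ES Q z`), `V = Q / ⟨z⟩`,
`V = [V, ⟨a, b⟩]` (`H6.ORE.FPz Q z a b`).  If `c ∈ Q a ^ 2 b ^ 2` acts non-trivially on `V`, then
`c = (q₁ a) ^ 2 * (q₂ b) ^ 2` with `q₁, q₂ ∈ Q`.
-/

set_option autoImplicit false

namespace Cfsg.Agent.H134.Sq

universe u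

open Module H6.ORE

/-- the linear algebra for the word `a * (b * a * b⁻¹)`: `A`, `Y` the actions of `a`, `b`,
`G = A Y`, `C Y = G A` -/
theorem rank_sq {V : Type*} [AddCommGroup V] [Module (ZMod 2) V] [FiniteDimensional (ZMod 2) V]
    (ω : LinearMap.BilinForm (ZMod 2) V) (hnd : ω.Nondegenerate) (hs : ∀ x y, ω x y = ω y x)
    (A Y G C : V ≃ₗ[ZMod 2] V) (hA : ∀ x y, ω (A x) (A y) = ω x y)
    (hG : ∀ x y, ω (G x) (G y) = ω x y) (hC : ∀ x y, ω (C x) (C y) = ω x y)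
    (e1 : ∀ x, G x = A (Y x)) (e2 : ∀ x, C (Y x) = G (A x))
    (hφ : ∀ w, ∃ r₁ r₂, r₁ + G r₁ + (A r₂ + C r₂) = w)
    (hB : ∀ q₁ q₂ r₁ r₂, q₁ + G q₁ + (A q₂ + C q₂) = 0 → r₁ + G r₁ + (A r₂ + C r₂) = 0 →
      ω r₁ (A q₂) + (ω r₁ q₁ + ω (C r₂) (G q₁)) = 0) : ∀ x, C x = x := by
  classical
  have two : ∀ v : V, v + v = 0 := by
    intro v
    have : (2 : ZMod 2) • v = 0 := by
      rw [show (2 : ZMod 2) = 0 from rfl, zero_smul]
    rwa [two_smul] at this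
  have cancel : ∀ {u v : V}, u + v = 0 → u = v := by
    intro u v h
    have := congrArg (fun t => t + v) h
    simpa [add_assoc, two] using this
  let φ : V × V →ₗ[ZMod 2] V :=
    (LinearMap.id + G.toLinearMap).comp (LinearMap.fst _ V V)
      + (A.toLinearMap + C.toLinearMap).comp (LinearMap.snd _ V V)
  have hφa : ∀ r : V × V, φ r = r.1 + G r.1 + (A r.2 + C r.2) := fun r => rfl
  have hsurj : Function.Surjective φ := by
    intro w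
    obtain ⟨r₁, r₂, h⟩ := hφ w
    exact ⟨(r₁, r₂), h⟩
  let ψ : V →ₗ[ZMod 2] V × V :=
    LinearMap.prod (LinearMap.id + A.toLinearMap) (LinearMap.id + Y.toLinearMap)
  have hψa : ∀ x, ψ x = (x + A x, x + Y x) := fun x => rfl
  have key : ∀ q ∈ LinearMap.ker φ, ∃ x, C x = x ∧ ψ x = q := by
    intro q hq
    let ℓ : V × V →ₗ[ZMod 2] ZMod 2 :=
      (ω (A q.2 + q.1)).comp (LinearMap.fst _ V V)
        + ((ω (G q.1)).comp C.toLinearMap).comp (LinearMap.snd _ V V)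
    have hℓa : ∀ r : V × V, ℓ r = ω (A q.2 + q.1) r.1 + ω (G q.1) (C r.2) := fun r => rfl
    have hℓ : ∀ r ∈ LinearMap.ker φ, ℓ r = 0 := by
      intro r hr
      have h3 := hB q.1 q.2 r.1 r.2 (by simpa [hφa] using hq) (by simpa [hφa] using hr)
      rw [hℓa, hs (G q.1), map_add, LinearMap.add_apply, hs (A q.2), hs q.1, add_assoc]
      exact h3
    have h1 : ℓ ∈ LinearMap.range φ.dualMap := by
      rw [LinearMap.range_dualMap_eq_dualAnnihilator_ker, Submodule.mem_dualAnnihilator]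
      exact hℓ
    obtain ⟨lam, hlam⟩ := h1
    obtain ⟨x, hx⟩ : ∃ x, ∀ v, ω x v = lam v := by
      refine ⟨(ω.toDual hnd).symm lam, fun v => ?_⟩
      exact LinearMap.BilinForm.apply_toDual_symm_apply (B := ω) (hB := hnd) lam v
    have h2 : ∀ r : V × V, ω (A q.2 + q.1) r.1 + ω (G q.1) (C r.2) = ω x (φ r) := by
      intro r
      rw [hx, ← hℓa, ← hlam]
      rfl
    have nd : ∀ u v : V, (∀ w, ω u w = ω v w) → u = v := by
      intro u v h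
      have h3 : ∀ w, ω (u - v) w = 0 := by
        intro w
        rw [map_sub, LinearMap.sub_apply, h w, sub_self]
      exact sub_eq_zero.1 (hnd.1 _ h3)
    set u := G.symm x with hu
    have hxu : G u = x := LinearEquiv.apply_symm_apply G x
    -- `G q₁ = x + C (A⁻¹ x)`, `A⁻¹ x = Y u`
    have hYu : A (Y u) = x := by rw [← e1, hxu]
    have hq1 : q.1 = u + A u := by
      apply G.injective
      apply nd
      intro w
      obtain ⟨w', rfl⟩ := C.surjective w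
      have := h2 (0, w')
      simp only [hφa, map_zero, add_zero, zero_add] at this
      rw [this, map_add G, hxu]
      simp only [map_add, LinearMap.add_apply]
      rw [← e2, hC, add_comm]
      congr 1
      rw [← hYu, hA]
    have hq2 : A q.2 + q.1 = x + u := by
      apply nd
      intro w
      have := h2 (w, 0)
      simp only [hφa, map_zero, add_zero, zero_add] at this
      rw [this]
      simp only [map_add, LinearMap.add_apply]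
      congr 1
      rw [← hxu, hG]
    have hq2' : q.2 = u + Y u := by
      apply A.injective
      rw [map_add, hYu]
      rw [hq1] at hq2
      have : A q.2 + (u + A u) + (u + A u) = x + u + (u + A u) := by rw [hq2]
      have e3 : A q.2 + (u + A u) + (u + A u) = A q.2 + (u + u) + (A u + A u) := by abel
      have e4 : x + u + (u + A u) = (u + u) + (A u + x) := by abel
      rw [e3, e4, two, two, add_zero, add_zero, zero_add] at this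
      exact this
    have hq0 : q.1 + G q.1 + (A q.2 + C q.2) = 0 := by simpa [hφa] using hq
    have hfix : C u = u := by
      rw [hq1, hq2'] at hq0
      simp only [map_add] at hq0
      rw [← e1, e2] at hq0
      have e : u + A u + (G u + G (A u)) + (A u + G u + (C u + G (A u)))
          = (A u + A u) + (G u + G u) + (G (A u) + G (A u)) + (C u + u) := by abel
      rw [e] at hq0
      simp only [two, zero_add] at hq0
      exact cancel hq0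
    refine ⟨u, hfix, ?_⟩
    rw [hψa, Prod.ext_iff]
    exact ⟨hq1.symm, hq2'.symm⟩
  let F : Submodule (ZMod 2) V := LinearMap.ker (C.toLinearMap - LinearMap.id)
  have hF : ∀ x, x ∈ F ↔ C x = x := by
    intro x
    rw [LinearMap.mem_ker]
    simp [sub_eq_zero]
  have hle : LinearMap.ker φ ≤ F.map ψ := by
    intro q hq
    obtain ⟨x, hx, e⟩ := key q hq
    exact ⟨x, (hF x).2 hx, e⟩
  have h1 : finrank (ZMod 2) (LinearMap.ker φ) ≤ finrank (ZMod 2) F :=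
    (Submodule.finrank_mono hle).trans (Submodule.finrank_map_le ψ F)
  have h2 := LinearMap.finrank_range_add_finrank_ker φ
  rw [LinearMap.range_eq_top.2 hsurj, finrank_top, Module.finrank_prod] at h2
  have h3 : finrank (ZMod 2) V ≤ finrank (ZMod 2) F := by omega
  have h4 : F = ⊤ := Submodule.eq_top_of_finrank_eq (le_antisymm (Submodule.finrank_le F) h3)
  intro x
  exact (hF x).1 (h4 ▸ Submodule.mem_top)

section

variable {H : Type u} [Group H] {Q : Subgroup H} {z : H}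

theorem ES_cls_one (D : VData Q z) : letI := D.acg; D.cls 1 = 0 := by
  letI := D.acg
  have := D.cls_mul 1 1
  rw [mul_one] at this
  have h2 : D.cls 1 + 0 = D.cls 1 + D.cls 1 := by rw [add_zero]; exact this
  exact (add_left_cancel h2).symm

theorem ES_cls_inv (h : ES Q z) (D : VData Q z) (x : Q) : D.cls x⁻¹ = D.cls x := by
  rw [D.cls_eq]
  rcases h.pow x x.2 with e' | e'
  · left
    exact (inv_eq_of_mul_eq_one_right e').symm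
  · right
    have : (x : H)⁻¹ * x * x = (x : H)⁻¹ * z := by rw [mul_assoc, e']
    simpa using this

theorem ES_L_mul (h : ES Q z) (D : VData Q z) (g k : H) :
    letI := D.acg; letI := D.mod; ∀ v, D.L (g * k) v = D.L g (D.L k v) := by
  letI := D.acg
  letI := D.mod
  intro v
  obtain ⟨x, rfl⟩ := D.surj v
  have h1 := D.L_cls k x ⟨k * x * k⁻¹, h.conj_mem x.2 k⟩ rfl
  have h2 := D.L_cls g ⟨k * x * k⁻¹, h.conj_mem x.2 k⟩
    ⟨g * (k * x * k⁻¹) * g⁻¹, h.conj_mem (h.conj_mem x.2 k) g⟩ rfl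
  have h3 := D.L_cls (g * k) x ⟨g * (k * x * k⁻¹) * g⁻¹, h.conj_mem (h.conj_mem x.2 k) g⟩
    (by show g * (k * (x : H) * k⁻¹) * g⁻¹ = g * k * x * (g * k)⁻¹; group)
  rw [h1, h2, h3]

/-- elements of `Q` act trivially -/
theorem ES_L_mem (h : ES Q z) (D : VData Q z) {q : H} (hq : q ∈ Q) (g : H) :
    letI := D.acg; letI := D.mod; ∀ v, D.L (q * g) v = D.L g v := by
  letI := D.acg
  letI := D.mod
  intro v
  rw [ES_L_mul h D q g v]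
  obtain ⟨x, hx⟩ := D.surj (D.L g v)
  rw [← hx]
  obtain ⟨ζ, hζ, e⟩ := h.conj_eq hq x.2
  rw [D.L_cls q x ⟨q * x * q⁻¹, h.conj_mem x.2 q⟩ rfl, eq_comm, D.cls_eq]
  show q * x * q⁻¹ = x ∨ q * x * q⁻¹ = x * z
  rw [e]
  rcases hζ with rfl | rfl
  · left; rw [mul_one]
  · right; rfl

theorem ES_FPz_iff (h : ES Q z) (D : VData Q z) (a b : H) :
    letI := D.acg; letI := D.mod;
    FPz Q z a b ↔ ∀ w : D.V, ∃ u v : D.V, u + D.L b u + (v + D.L a v) = w := by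
  letI := D.acg
  letI := D.mod
  have key : ∀ u v : Q, D.cls (u * (⟨b * u * b⁻¹, h.conj_mem u.2 b⟩ : Q)⁻¹ *
      (v * (⟨a * v * a⁻¹, h.conj_mem v.2 a⟩ : Q)⁻¹)) =
      D.cls u + D.L b (D.cls u) + (D.cls v + D.L a (D.cls v)) := by
    intro u v
    rw [D.cls_mul, D.cls_mul, D.cls_mul, ES_cls_inv h D, ES_cls_inv h D,
      D.L_cls b u ⟨b * u * b⁻¹, h.conj_mem u.2 b⟩ rfl,
      D.L_cls a v ⟨a * v * a⁻¹, h.conj_mem v.2 a⟩ rfl]
  constructor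
  · intro hfp w
    obtain ⟨w, rfl⟩ := D.surj w
    obtain ⟨u, hu, v, hv, ζ, hζ, e⟩ := hfp w w.2
    refine ⟨D.cls ⟨u, hu⟩, D.cls ⟨v, hv⟩, ?_⟩
    rw [← key, D.cls_eq]
    show (w : H) = u * (b * u * b⁻¹)⁻¹ * (v * (a * v * a⁻¹)⁻¹) ∨
      (w : H) = u * (b * u * b⁻¹)⁻¹ * (v * (a * v * a⁻¹)⁻¹) * z
    rw [e]
    rcases hζ with rfl | rfl
    · left; rw [mul_one]
    · right; rfl
  · intro hfp w hw
    obtain ⟨u, v, e⟩ := hfp (D.cls ⟨w, hw⟩)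
    obtain ⟨u, rfl⟩ := D.surj u
    obtain ⟨v, rfl⟩ := D.surj v
    rw [← key, D.cls_eq] at e
    have e' : w = u * (b * u * b⁻¹)⁻¹ * (v * (a * v * a⁻¹)⁻¹) ∨
      w = u * (b * u * b⁻¹)⁻¹ * (v * (a * v * a⁻¹)⁻¹) * z := e
    rcases e' with e' | e'
    · exact ⟨u, u.2, v, v.2, 1, Or.inl rfl, by rw [mul_one]; exact e'⟩
    · exact ⟨u, u.2, v, v.2, z, Or.inr rfl, e'⟩

theorem ES_ceq : ∀ s t : ZMod 2, (s = 0 ↔ t = 0) → s = t := by decide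

/-- The extraspecial coset lemma for the word `a * (b * a * b⁻¹)`. -/
theorem ES_step_w (h : ES Q z) [Finite Q] {a b c : H} (hfp : FPz Q z a b)
    (hc : c * (a * b * a * b⁻¹)⁻¹ ∈ Q)
    (hact : ∃ x ∈ Q, ¬ (c * x * c⁻¹ = x ∨ c * x * c⁻¹ = x * z)) :
    ∃ q₁ ∈ Q, ∃ q₂ ∈ Q, c = (q₁ * a) * (q₂ * b) * (q₁ * a) * (q₂ * b)⁻¹ := by
  classical
  obtain ⟨D⟩ := h.exists_vdata
  let _ := D.acg
  let _ := D.mod
  have hfin := D.fin
  have : FiniteDimensional (ZMod 2) D.V := Module.Finite.of_finite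
  have two : ∀ v : D.V, v + v = 0 := by
    intro v
    have : (2 : ZMod 2) • v = 0 := by
      rw [show (2 : ZMod 2) = 0 from rfl, zero_smul]
    rwa [two_smul] at this
  -- conjugation inside `Q`
  let K : H → Q → Q := fun g x => ⟨g * x * g⁻¹, h.conj_mem x.2 g⟩
  have hL : ∀ g x, D.L g (D.cls x) = D.cls (K g x) := fun g x => D.L_cls g x _ rfl
  have c2 : ∀ c : ZMod 2, c = 0 ∨ c = 1 := by decide
  have hs : ∀ x y, D.ω x y = D.ω y x := by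
    intro u v
    obtain ⟨x, rfl⟩ := D.surj u
    obtain ⟨y, rfl⟩ := D.surj v
    apply ES_ceq
    rw [D.ω_cls, D.ω_cls]
    exact eq_comm
  have hnd : D.ω.Nondegenerate := by
    have key : ∀ u, (∀ v, D.ω u v = 0) → u = 0 := by
      intro u hu
      obtain ⟨x, rfl⟩ := D.surj u
      have h1 := h.nd x x.2 (fun y hy => by
        have := hu (D.cls ⟨y, hy⟩)
        rwa [D.ω_cls] at this)
      rw [← ES_cls_one D, eq_comm, D.cls_eq]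
      simpa using h1
    refine ⟨key, fun v hv => key v (fun u => by rw [hs]; exact hv u)⟩
  have hiso : ∀ g x y, D.ω (D.L g x) (D.L g y) = D.ω x y := by
    intro g u v
    obtain ⟨x, rfl⟩ := D.surj u
    obtain ⟨y, rfl⟩ := D.surj v
    apply ES_ceq
    rw [hL, hL, D.ω_cls, D.ω_cls]
    constructor
    · intro e'
      have e'' : g * ((x : H) * y) * g⁻¹ = g * (y * x) * g⁻¹ := by
        calc g * ((x : H) * y) * g⁻¹ = (K g x : H) * (K g y : H) := by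
              show _ = (g * x * g⁻¹) * (g * y * g⁻¹); group
          _ = (K g y : H) * (K g x : H) := e'
          _ = _ := by show (g * y * g⁻¹) * (g * x * g⁻¹) = _; group
      exact mul_left_cancel (mul_right_cancel e'')
    · intro e'
      show (g * x * g⁻¹) * (g * y * g⁻¹) = (g * y * g⁻¹) * (g * x * g⁻¹)
      calc (g * (x : H) * g⁻¹) * (g * y * g⁻¹) = g * (x * y) * g⁻¹ := by group
        _ = g * (y * x) * g⁻¹ := by rw [e']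
        _ = _ := by group
  -- the function `Φ` for given `a`, `b`
  let Φ : H → H → Q → Q → Q := fun a b r₁ r₂ =>
    r₁ * K a r₂ * K (a * b) r₁ * (K (a * b * a * b⁻¹) r₂)⁻¹
  have hΦ : ∀ a b : H, ∀ r₁ r₂ : Q, (r₁ * a) * (r₂ * b) * (r₁ * a) * (r₂ * b)⁻¹
      = Φ a b r₁ r₂ * (a * b * a * b⁻¹) := by
    intro a b r₁ r₂
    show _ = r₁ * (a * r₂ * a⁻¹) * ((a * b) * r₁ * (a * b)⁻¹) *
      ((a * b * a * b⁻¹) * r₂ * (a * b * a * b⁻¹)⁻¹)⁻¹ * (a * b * a * b⁻¹)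
    group
  have hsum : ∀ a b : H, ∀ r₁ r₂ : Q, D.cls (Φ a b r₁ r₂) = D.cls r₁ + D.L (a * b) (D.cls r₁)
        + (D.L a (D.cls r₂) + D.L (a * b * a * b⁻¹) (D.cls r₂)) := by
    intro a b r₁ r₂
    show D.cls (r₁ * K a r₂ * K (a * b) r₁ * (K (a * b * a * b⁻¹) r₂)⁻¹) = _
    rw [D.cls_mul, D.cls_mul, D.cls_mul, ES_cls_inv h D, hL, hL, hL]
    abel
  -- surjectivity of the linear part
  have hsurj : ∀ a b : H, FPz Q z a b → ∀ w : D.V, ∃ r₁ r₂ : D.V,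
      r₁ + D.L (a * b) r₁ + (D.L a r₂ + D.L (a * b * a * b⁻¹) r₂) = w := by
    intro a b hfp w
    obtain ⟨u, v, e⟩ := (ES_FPz_iff h D a b).1 hfp w
    have hLm := ES_L_mul h D
    obtain ⟨t, ht⟩ : ∃ t, t = D.L b u + v := ⟨_, rfl⟩
    refine ⟨u + (t + D.L a t), D.L b t, ?_⟩
    have e3 : D.L (a * b * a * b⁻¹) (D.L b t) = D.L a (D.L b (D.L a t)) := by
      rw [← hLm, inv_mul_cancel_right, hLm, hLm]
    have e6 : ∀ x, D.L (a * b) x = D.L a (D.L b x) := hLm a b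
    rw [e3]
    simp only [e6, map_add]
    have e4 : u + (t + D.L a t) + (D.L a (D.L b u) + (D.L a (D.L b t) + D.L a (D.L b (D.L a t))))
        + (D.L a (D.L b t) + D.L a (D.L b (D.L a t)))
        = (u + D.L a (D.L b u)) + (t + D.L a t) + (D.L a (D.L b t) + D.L a (D.L b t))
          + (D.L a (D.L b (D.L a t)) + D.L a (D.L b (D.L a t))) := by abel
    have e5 : (u + D.L a (D.L b u)) + (t + D.L a t) = u + D.L b u + (v + D.L a v)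
        + (D.L a (D.L b u) + D.L a (D.L b u)) := by
      rw [ht, map_add]; abel
    rw [e4, e5]
    simp only [two, add_zero]
    exact e
  -- first approximation, modulo `z`
  obtain ⟨r₁, r₂, hr⟩ : ∃ r₁ r₂ : Q, D.cls (Φ a b r₁ r₂) = D.cls ⟨_, hc⟩ := by
    obtain ⟨u, v, e⟩ := hsurj a b hfp (D.cls ⟨_, hc⟩)
    obtain ⟨r₁, rfl⟩ := D.surj u
    obtain ⟨r₂, rfl⟩ := D.surj v
    exact ⟨r₁, r₂, by rw [hsum, e]⟩
  rw [eq_comm, D.cls_eq] at hr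
  have hr' : (Φ a b r₁ r₂ : H) = c * (a * b * a * b⁻¹)⁻¹ ∨
    (Φ a b r₁ r₂ : H) = c * (a * b * a * b⁻¹)⁻¹ * z := hr
  rcases hr' with hr' | hr'
  · refine ⟨r₁, r₁.2, r₂, r₂.2, ?_⟩
    rw [hΦ, hr']; group
  by_contra hno
  push Not at hno
  obtain ⟨a₁, ha₁⟩ : ∃ a₁, a₁ = r₁ * a := ⟨_, rfl⟩
  obtain ⟨b₁, hb₁⟩ : ∃ b₁, b₁ = r₂ * b := ⟨_, rfl⟩
  obtain ⟨c₁, hc₁⟩ : ∃ c₁, c₁ = a₁ * b₁ * a₁ * b₁⁻¹ := ⟨_, rfl⟩
  have hcz : c₁ = c * z := by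
    rw [hc₁, ha₁, hb₁, hΦ, hr']
    calc c * (a * b * a * b⁻¹)⁻¹ * z * (a * b * a * b⁻¹)
        = c * (a * b * a * b⁻¹)⁻¹ * (z * (a * b * a * b⁻¹)) := by group
      _ = c * (a * b * a * b⁻¹)⁻¹ * ((a * b * a * b⁻¹) * z) := by rw [← h.central]
      _ = _ := by group
  have hfp' : FPz Q z a₁ b₁ := by rw [ha₁, hb₁]; exact hfp.mul_left h r₁.2 r₂.2
  have hno' : ∀ q₁ ∈ Q, ∀ q₂ ∈ Q, (q₁ * a₁) * (q₂ * b₁) * (q₁ * a₁) * (q₂ * b₁)⁻¹ ≠ c := by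
    intro q₁ h₁ q₂ h₂ e'
    refine hno (q₁ * r₁) (Q.mul_mem h₁ r₁.2) (q₂ * r₂) (Q.mul_mem h₂ r₂.2) ?_
    rw [← e', ha₁, hb₁]; group
  have hone : ∀ s₁ s₂ : Q, D.cls s₁ + D.L (a₁ * b₁) (D.cls s₁)
        + (D.L a₁ (D.cls s₂) + D.L c₁ (D.cls s₂)) = 0 → (Φ a₁ b₁ s₁ s₂ : H) = 1 := by
    intro s₁ s₂ h0
    rw [hc₁, ← hsum, ← ES_cls_one D, eq_comm, D.cls_eq] at h0
    rcases h0 with h0 | h0
    · exact h0
    · exfalso
      have h0' : (Φ a₁ b₁ s₁ s₂ : H) = z := by rw [h0, Subgroup.coe_one, one_mul]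
      refine hno' s₁ s₁.2 s₂ s₂.2 ?_
      rw [hΦ, h0', ← hc₁, hcz, h.central c, ← mul_assoc, h.sq, one_mul]
  have hLm := ES_L_mul h D
  have hγ := rank_sq D.ω hnd hs (D.L a₁) (D.L b₁) (D.L (a₁ * b₁)) (D.L c₁) (hiso a₁)
    (hiso (a₁ * b₁)) (hiso c₁) (fun x => hLm a₁ b₁ x)
    (fun x => by rw [← hLm, ← hLm, hc₁, inv_mul_cancel_right])
    (by
      intro w
      rw [hc₁]
      exact hsurj a₁ b₁ hfp' w)
    (by
      intro v₁ v₂ u₁ u₂ hv hu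
      obtain ⟨q₁, rfl⟩ := D.surj v₁
      obtain ⟨q₂, rfl⟩ := D.surj v₂
      obtain ⟨r₁, rfl⟩ := D.surj u₁
      obtain ⟨r₂, rfl⟩ := D.surj u₂
      have o1 := hone r₁ r₂ hu
      have o2 := hone q₁ q₂ hv
      have o3 : (Φ a₁ b₁ (q₁ * r₁) (q₂ * r₂) : H) = 1 := by
        apply hone
        rw [D.cls_mul, D.cls_mul]
        simp only [map_add]
        have : (D.cls q₁ + D.cls r₁) + (D.L (a₁ * b₁) (D.cls q₁) + D.L (a₁ * b₁) (D.cls r₁))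
            + (D.L a₁ (D.cls q₂) + D.L a₁ (D.cls r₂) + (D.L c₁ (D.cls q₂) + D.L c₁ (D.cls r₂)))
            = (D.cls q₁ + D.L (a₁ * b₁) (D.cls q₁) + (D.L a₁ (D.cls q₂) + D.L c₁ (D.cls q₂)))
            + (D.cls r₁ + D.L (a₁ * b₁) (D.cls r₁) + (D.L a₁ (D.cls r₂) + D.L c₁ (D.cls r₂))) := by
          abel
        rw [this, hu, hv, add_zero]
      obtain ⟨x₁, hx₁⟩ : ∃ t, t = (q₁ : H) := ⟨_, rfl⟩
      obtain ⟨x₂, hx₂⟩ : ∃ t, t = a₁ * (q₂ : H) * a₁⁻¹ := ⟨_, rfl⟩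
      obtain ⟨x₃, hx₃⟩ : ∃ t, t = (a₁ * b₁) * (q₁ : H) * (a₁ * b₁)⁻¹ := ⟨_, rfl⟩
      obtain ⟨x₄, hx₄⟩ : ∃ t, t = c₁ * (q₂ : H) * c₁⁻¹ := ⟨_, rfl⟩
      obtain ⟨y₁, hy₁⟩ : ∃ t, t = (r₁ : H) := ⟨_, rfl⟩
      obtain ⟨y₂, hy₂⟩ : ∃ t, t = a₁ * (r₂ : H) * a₁⁻¹ := ⟨_, rfl⟩
      obtain ⟨y₃, hy₃⟩ : ∃ t, t = (a₁ * b₁) * (r₁ : H) * (a₁ * b₁)⁻¹ := ⟨_, rfl⟩
      obtain ⟨y₄, hy₄⟩ : ∃ t, t = c₁ * (r₂ : H) * c₁⁻¹ := ⟨_, rfl⟩
      have p1 : y₁ * y₂ * y₃ = y₄ := by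
        have : y₁ * y₂ * y₃ * y₄⁻¹ = 1 := by rw [hy₁, hy₂, hy₃, hy₄, hc₁]; exact o1
        exact mul_inv_eq_one.1 this
      have p2 : x₁ * x₂ * x₃ = x₄ := by
        have : x₁ * x₂ * x₃ * x₄⁻¹ = 1 := by rw [hx₁, hx₂, hx₃, hx₄, hc₁]; exact o2
        exact mul_inv_eq_one.1 this
      have p3 : x₁ * y₁ * (x₂ * y₂) * (x₃ * y₃) = x₄ * y₄ := by
        have : x₁ * y₁ * (x₂ * y₂) * (x₃ * y₃) * (x₄ * y₄)⁻¹ = 1 := by
          have o4 : ((q₁ * r₁ : Q) : H) * (a₁ * ((q₂ * r₂ : Q) : H) * a₁⁻¹)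
            * ((a₁ * b₁) * ((q₁ * r₁ : Q) : H) * (a₁ * b₁)⁻¹)
            * ((a₁ * b₁ * a₁ * b₁⁻¹) * ((q₂ * r₂ : Q) : H) * (a₁ * b₁ * a₁ * b₁⁻¹)⁻¹)⁻¹ = 1 := o3
          rw [Subgroup.coe_mul, Subgroup.coe_mul, ← hc₁] at o4
          rw [hx₁, hx₂, hx₃, hx₄, hy₁, hy₂, hy₃, hy₄, ← o4]; group
        exact mul_inv_eq_one.1 this
      -- commutation up to `z`
      have cz : ∀ y x : Q, ∃ ζ : H, (y : H) * x = x * y * ζ ∧
          ((D.ω (D.cls y) (D.cls x) = 0 ∧ ζ = 1) ∨ (D.ω (D.cls y) (D.cls x) = 1 ∧ ζ = z)) := by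
        intro y x
        by_cases hyx : (y : H) * x = x * y
        · exact ⟨1, by rw [hyx, mul_one], Or.inl ⟨(D.ω_cls y x).2 hyx, rfl⟩⟩
        · refine ⟨z, (h.comm y y.2 x x.2).resolve_left hyx, Or.inr ⟨?_, rfl⟩⟩
          exact (c2 _).resolve_left (fun h0 => hyx ((D.ω_cls y x).1 h0))
      obtain ⟨ζ₁, f₁, g₁⟩ := cz r₁ (K a₁ q₂)
      obtain ⟨ζ₃, f₃, g₃⟩ := cz (K (a₁ * b₁) r₁) (K (a₁ * b₁) q₁)
      obtain ⟨ζ₄, f₄, g₄⟩ := cz (K c₁ r₂) (K (a₁ * b₁) q₁)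
      have f₁' : y₁ * x₂ = x₂ * y₁ * ζ₁ := by rw [hy₁, hx₂]; exact f₁
      have f₃' : y₃ * x₃ = x₃ * y₃ * ζ₃ := by rw [hy₃, hx₃]; exact f₃
      have f₄' : y₄ * x₃ = x₃ * y₄ * ζ₄ := by rw [hy₄, hx₃]; exact f₄
      rw [← hL] at g₁
      rw [← hL, ← hL, hiso] at g₃
      rw [← hL, ← hL] at g₄
      have zc : ∀ ζ : H, (ζ = 1 ∨ ζ = z) → ∀ g : H, g * ζ = ζ * g := fun ζ hζ g => h.zc hζ g
      have k1 : ζ₁ = 1 ∨ ζ₁ = z := by rcases g₁ with ⟨-, h'⟩ | ⟨-, h'⟩ <;> simp [h']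
      have k3 : ζ₃ = 1 ∨ ζ₃ = z := by rcases g₃ with ⟨-, h'⟩ | ⟨-, h'⟩ <;> simp [h']
      have k4 : ζ₄ = 1 ∨ ζ₄ = z := by rcases g₄ with ⟨-, h'⟩ | ⟨-, h'⟩ <;> simp [h']
      have hprod : ζ₁ * ζ₄ = ζ₃ := by
        -- `y₁ x₂ y₂ x₃ = x₂ x₃ y₁ y₂`
        have m1 : y₁ * x₂ * y₂ * x₃ = x₂ * x₃ * (y₁ * y₂) := by
          have m2 : x₁ * (y₁ * x₂ * y₂ * x₃) * y₃ = x₁ * (x₂ * x₃ * (y₁ * y₂)) * y₃ := by
            calc x₁ * (y₁ * x₂ * y₂ * x₃) * y₃ = x₁ * y₁ * (x₂ * y₂) * (x₃ * y₃) := by group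
              _ = x₄ * y₄ := p3
              _ = (x₁ * x₂ * x₃) * (y₁ * y₂ * y₃) := by rw [p1, p2]
              _ = _ := by group
          exact mul_left_cancel (mul_right_cancel m2)
        have m3 : y₁ * y₂ = y₄ * y₃⁻¹ := by rw [← p1]; group
        -- left side
        have m4 : y₁ * x₂ * y₂ * x₃ = x₂ * (y₁ * y₂ * x₃) * ζ₁ := by
          calc y₁ * x₂ * y₂ * x₃ = (x₂ * y₁ * ζ₁) * y₂ * x₃ := by rw [f₁']
            _ = x₂ * y₁ * (ζ₁ * (y₂ * x₃)) := by group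
            _ = x₂ * y₁ * ((y₂ * x₃) * ζ₁) := by rw [← zc ζ₁ k1]
            _ = _ := by group
        have m5 : y₁ * y₂ * x₃ * ζ₁ = x₃ * (y₁ * y₂) := by
          have : x₂ * (y₁ * y₂ * x₃ * ζ₁) = x₂ * (x₃ * (y₁ * y₂)) := by
            calc x₂ * (y₁ * y₂ * x₃ * ζ₁) = x₂ * (y₁ * y₂ * x₃) * ζ₁ := by group
              _ = x₂ * x₃ * (y₁ * y₂) := by rw [← m4, m1]
              _ = _ := by group
          exact mul_left_cancel this
        rw [m3] at m5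
        -- `y₃⁻¹ x₃ = x₃ y₃⁻¹ ζ₃⁻¹`
        have m6 : y₃⁻¹ * x₃ = x₃ * y₃⁻¹ * ζ₃⁻¹ := by
          have : x₃ = y₃⁻¹ * (x₃ * y₃ * ζ₃) := by rw [← f₃']; group
          have m7 : y₃⁻¹ * x₃ * (y₃ * ζ₃) = x₃ := by
            calc y₃⁻¹ * x₃ * (y₃ * ζ₃) = y₃⁻¹ * (x₃ * y₃ * ζ₃) := by group
              _ = x₃ := this.symm
          calc y₃⁻¹ * x₃ = (y₃⁻¹ * x₃ * (y₃ * ζ₃)) * (y₃ * ζ₃)⁻¹ := by group
            _ = x₃ * (y₃ * ζ₃)⁻¹ := by rw [m7]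
            _ = x₃ * (ζ₃ * y₃)⁻¹ := by rw [zc ζ₃ k3]
            _ = _ := by group
        have m8 : x₃ * y₄ * y₃⁻¹ * (ζ₄ * ζ₃⁻¹ * ζ₁) = x₃ * y₄ * y₃⁻¹ * 1 := by
          calc x₃ * y₄ * y₃⁻¹ * (ζ₄ * ζ₃⁻¹ * ζ₁)
              = x₃ * y₄ * (y₃⁻¹ * ζ₄) * ζ₃⁻¹ * ζ₁ := by group
            _ = x₃ * y₄ * (ζ₄ * y₃⁻¹) * ζ₃⁻¹ * ζ₁ := by rw [zc ζ₄ k4]
            _ = (x₃ * y₄ * ζ₄) * y₃⁻¹ * ζ₃⁻¹ * ζ₁ := by group
            _ = (y₄ * x₃) * y₃⁻¹ * ζ₃⁻¹ * ζ₁ := by rw [f₄']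
            _ = y₄ * (x₃ * y₃⁻¹ * ζ₃⁻¹) * ζ₁ := by group
            _ = y₄ * (y₃⁻¹ * x₃) * ζ₁ := by rw [m6]
            _ = y₄ * y₃⁻¹ * x₃ * ζ₁ := by group
            _ = x₃ * (y₄ * y₃⁻¹) := m5
            _ = _ := by group
        have m9 := mul_left_cancel m8
        calc ζ₁ * ζ₄ = ζ₁ * (ζ₄ * ζ₃⁻¹ * ζ₁) * ζ₁⁻¹ * ζ₃ := by group
          _ = ζ₃ := by rw [m9]; group
      rcases g₁ with ⟨w1, z1⟩ | ⟨w1, z1⟩ <;> rcases g₃ with ⟨w3, z3⟩ | ⟨w3, z3⟩ <;>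
        rcases g₄ with ⟨w4, z4⟩ | ⟨w4, z4⟩ <;> rw [w1, w3, w4] <;>
        rw [z1, z3, z4] at hprod <;> first
          | rfl
          | (exfalso; simp [h.ne, h.sq, h.ne.symm] at hprod))
  -- conclusion
  obtain ⟨x, hx, hne⟩ := hact
  apply hne
  have h1 := hγ (D.cls ⟨x, hx⟩)
  rw [hL, eq_comm, D.cls_eq] at h1
  have h2 : ((K c₁ ⟨x, hx⟩ : Q) : H) = c * x * c⁻¹ := by
    show c₁ * x * c₁⁻¹ = _
    rw [hcz]
    calc c * z * x * (c * z)⁻¹ = c * (z * x * z⁻¹) * c⁻¹ := by group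
      _ = c * x * c⁻¹ := by rw [← h.central x]; group
  rwa [h2] at h1

/-- **The extraspecial coset lemma for products of two squares.** -/
theorem ES_step_sq (h : ES Q z) [Finite Q] {a b c : H} (hfp : FPz Q z a b)
    (hc : c * (a ^ 2 * b ^ 2)⁻¹ ∈ Q)
    (hact : ∃ x ∈ Q, ¬ (c * x * c⁻¹ = x ∨ c * x * c⁻¹ = x * z)) :
    ∃ q₁ ∈ Q, ∃ q₂ ∈ Q, c = (q₁ * a) ^ 2 * (q₂ * b) ^ 2 := by
  obtain ⟨D⟩ := h.exists_vdata
  let _ := D.acg
  let _ := D.mod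
  have hLm := ES_L_mul h D
  have two : ∀ v : D.V, v + v = 0 := by
    intro v
    have : (2 : ZMod 2) • v = 0 := by
      rw [show (2 : ZMod 2) = 0 from rfl, zero_smul]
    rwa [two_smul] at this
  have hfp' : FPz Q z (a * b) b⁻¹ := by
    rw [ES_FPz_iff h D] at hfp ⊢
    intro w
    obtain ⟨u, v, e⟩ := hfp w
    refine ⟨v + D.L b u, D.L b⁻¹ v, ?_⟩
    have hb : ∀ t, D.L b⁻¹ (D.L b t) = t := by
      intro t
      rw [← hLm, inv_mul_cancel]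
      have := hLm 1 1 t
      rw [mul_one] at this
      exact ((D.L 1).injective this).symm
    have hb' : ∀ t, D.L b (D.L b⁻¹ t) = t := by
      intro t
      rw [← hLm, mul_inv_cancel]
      have := hLm 1 1 t
      rw [mul_one] at this
      exact ((D.L 1).injective this).symm
    rw [hLm a b, hb', map_add, hb, ← e]
    have : v + D.L b u + (D.L b⁻¹ v + u) + (D.L b⁻¹ v + D.L a v)
        = u + D.L b u + (v + D.L a v) + (D.L b⁻¹ v + D.L b⁻¹ v) := by abel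
    rw [this, two, add_zero]
  have hc' : c * (a * b * b⁻¹ * (a * b) * b⁻¹⁻¹)⁻¹ ∈ Q := by
    have : a * b * b⁻¹ * (a * b) * b⁻¹⁻¹ = a ^ 2 * b ^ 2 := by simp only [pow_two]; group
    rwa [this]
  obtain ⟨q₁, h₁, q₂, h₂, e⟩ := ES_step_w h hfp' hc' hact
  refine ⟨q₁ * (a * b * q₂ * (a * b)⁻¹), Q.mul_mem h₁ (h.conj_mem h₂ _), b * q₂⁻¹ * b⁻¹,
    h.conj_mem (Q.inv_mem h₂) b, ?_⟩
  rw [e]
  simp only [pow_two]
  group

/-- The extraspecial coset lemma along a surjection. -/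
theorem ES_lift_sq {K : Type*} [Group K] (π : H →* K) (h : ES π.ker z) [Finite π.ker] {a b c : H}
    (hfp : FPz π.ker z a b) (hc : π c = π a ^ 2 * π b ^ 2)
    (hact : ∃ x ∈ π.ker, ¬ (c * x * c⁻¹ = x ∨ c * x * c⁻¹ = x * z)) :
    ∃ a' b' : H, π a' = π a ∧ π b' = π b ∧ c = a' ^ 2 * b' ^ 2 := by
  have h1 : c * (a ^ 2 * b ^ 2)⁻¹ ∈ π.ker := by
    rw [MonoidHom.mem_ker, map_mul, hc, map_inv, map_mul, map_pow, map_pow, mul_inv_cancel]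
  obtain ⟨q₁, h₁, q₂, h₂, e⟩ := ES_step_sq h hfp h1 hact
  refine ⟨q₁ * a, q₂ * b, ?_, ?_, e⟩
  · rw [map_mul, (MonoidHom.mem_ker).1 h₁, one_mul]
  · rw [map_mul, (MonoidHom.mem_ker).1 h₂, one_mul]

end

end Cfsg.Agent.H134.Sq
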