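import Cfsg.Agent.H134.Sq.Extra
import Cfsg.Agent.H134.Sq.Coset
import Cfsg.Agent.H78.Pw.Base

/-!
# Products of two squares: ready-made tools for the rows (S2453)

* `isP_of_pr`, `allP_of_pw` : from S2465 (`H78.Pw`);
* `isP_lift_odd` : `π c = π c₁ * π c₂`, `c₁`, `c₂` of odd order, `c₁` fixed point free on
  `Q / ⟨z⟩`, `Q = π.ker` extraspecial, `c` acting non-trivially: `c` is a product of two squares;
* `isP_mem_extra` : all elements of an extraspecial group `Q` normalised by an element of odd order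
  fixed point free on `Q / ⟨z⟩`;
* `isP_coset_mul` : `c₂` (of odd order) fixed point free on the sections, `c₁` of odd order.
-/

set_option autoImplicit false

namespace Cfsg.Agent.H134.Sq

universe u

open H6.ORE

section

variable {G : Type*} [Group G] {k : ℕ}

theorem isP_of_pr {g : G} (h : H78.Pw.Pr k g) : IsP k g := h.pow

/-- From the row of S2465. -/
theorem allP_of_pw {p : ℕ} (hp : p.Prime) (h : H78.Pw.Pw G) : AllP p G :=
  fun g => h.pow (Or.inl hp.isPrimePow) g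

/-- Elements of odd order are squares of their powers. -/
theorem exists_sqrt {x : G} (h : Odd (orderOf x)) : ∃ a ∈ Subgroup.zpowers x, a ^ 2 = x :=
  exists_zpowers_pow (by rw [Nat.coprime_two_right]; exact h)

theorem isP_two_of_odd {x : G} (h : Odd (orderOf x)) : IsP 2 x :=
  isP_of_coprime (by rw [Nat.coprime_two_right]; exact h)

theorem isP_two_of_mul {g x y : G} (e : g = x * y) (hx : Odd (orderOf x))
    (hy : Odd (orderOf y)) : IsP 2 g :=
  isP_of_mul e (by rw [Nat.coprime_two_right]; exact hx) (by rw [Nat.coprime_two_right]; exact hy)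

/-- `g = [a, b]` with `a` of odd order. -/
theorem isP_two_of_comm {g a b : G} (e : g = a * b * a⁻¹ * b⁻¹) (ha : Odd (orderOf a)) :
    IsP 2 g := by
  rw [e]
  exact isP_of_comm (by rw [Nat.coprime_two_right]; exact ha)

/-- The coset `c₁ c₂ N`, `c₂` fixed point free on the sections, `c₁`, `c₂` of order prime to
`k`. -/
theorem isP_coset_mul {c₁ c₂ : G} (N : ℕ → Subgroup G) [hN : ∀ i, (N i).Normal] (m : ℕ)
    (h0 : N 0 = ⊥) (hmono : ∀ i < m, N i ≤ N (i + 1))
    (hcov : ∀ i < m, CovOne c₂ (N (i + 1)) (N i)) (h1 : (orderOf c₁).Coprime k)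
    (h2 : (orderOf c₂).Coprime k) {n : G} (hn : n ∈ N m) : IsP k (c₁ * c₂ * n) := by
  obtain ⟨w, -, e⟩ := coset_mul (c₁ := c₁) (c₂ := c₂) N m h0 hmono hcov hn
  refine isP_of_mul e h1 ?_
  rwa [← MulAut.conj_apply, MulEquiv.orderOf_eq]

end

section

variable {H : Type u} [Group H] {Q : Subgroup H} {z : H}

/-- fixed point free square roots -/
theorem fix_of_sq (h : ES Q z) {a c : H} (hac : a ^ 2 = c)
    (hfix : ∀ x ∈ Q, (c * x * c⁻¹ = x ∨ c * x * c⁻¹ = x * z) → x = 1 ∨ x = z) :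
    ∀ x ∈ Q, (a * x * a⁻¹ = x ∨ a * x * a⁻¹ = x * z) → x = 1 ∨ x = z := by
  intro x hx hax
  apply hfix x hx
  left
  rw [← hac, pow_two]
  rcases hax with e | e
  · calc a * a * x * (a * a)⁻¹ = a * (a * x * a⁻¹) * a⁻¹ := by group
      _ = x := by rw [e, e]
  · calc a * a * x * (a * a)⁻¹ = a * (a * x * a⁻¹) * a⁻¹ := by group
      _ = a * (x * z) * a⁻¹ := by rw [e]
      _ = (a * x * a⁻¹) * (a * z * a⁻¹) := by group
      _ = x * z * z := by rw [e, h.central a]; group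
      _ = x := by rw [mul_assoc, h.sq, mul_one]

/-- **Extraspecial coset lemma, odd order form, inside one group.** -/
theorem isP_step_odd (h : ES Q z) [Finite Q] {c c₁ c₂ : H} (h1 : Odd (orderOf c₁))
    (h2 : Odd (orderOf c₂))
    (hfix : ∀ x ∈ Q, (c₁ * x * c₁⁻¹ = x ∨ c₁ * x * c₁⁻¹ = x * z) → x = 1 ∨ x = z)
    (hc : c * (c₁ * c₂)⁻¹ ∈ Q)
    (hact : ∃ x ∈ Q, ¬ (c * x * c⁻¹ = x ∨ c * x * c⁻¹ = x * z)) : IsP 2 c := by
  obtain ⟨a, -, ha⟩ := exists_sqrt h1
  obtain ⟨b, -, hb⟩ := exists_sqrt h2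
  have hfp : FPz Q z a b := FPz.of_left h b (fix_of_sq h ha hfix)
  obtain ⟨q₁, -, q₂, -, e⟩ := ES_step_sq h hfp (by rw [ha, hb]; exact hc) hact
  exact ⟨_, _, e⟩

/-- **Extraspecial coset lemma, odd order form, along a homomorphism.** -/
theorem isP_lift_odd {K : Type*} [Group K] (π : H →* K) (h : ES π.ker z) [Finite π.ker]
    {c c₁ c₂ : H} (h1 : Odd (orderOf c₁)) (h2 : Odd (orderOf c₂))
    (hfix : ∀ x ∈ π.ker, (c₁ * x * c₁⁻¹ = x ∨ c₁ * x * c₁⁻¹ = x * z) → x = 1 ∨ x = z)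
    (hc : π c = π c₁ * π c₂)
    (hact : ∃ x ∈ π.ker, ¬ (c * x * c⁻¹ = x ∨ c * x * c⁻¹ = x * z)) : IsP 2 c := by
  refine isP_step_odd h h1 h2 hfix ?_ hact
  rw [MonoidHom.mem_ker, map_mul, hc, map_inv, map_mul, mul_inv_cancel]

/-- An element of the kernel coset may be replaced by one of odd order. -/
theorem exists_odd_lift {K : Type*} [Group K] [Finite H] (π : H →* K) {c : H}
    (hc : Odd (orderOf (π c))) : ∃ m : ℕ, Odd (orderOf (c ^ m)) ∧ π (c ^ m) = π c := by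
  -- write `orderOf c = 2 ^ j * r`, `r` odd; choose `m ≡ 1 mod r`, `m ≡ 0 mod 2 ^ j`
  obtain ⟨j, r, hr, hjr⟩ := Nat.exists_eq_two_pow_mul_odd (orderOf_pos c).ne'
  have hcop : Nat.Coprime (2 ^ j) r := (Nat.coprime_two_left.2 hr).pow_left j
  obtain ⟨m, hm1, hm2⟩ := Nat.chineseRemainder hcop 0 1
  refine ⟨m, ?_, ?_⟩
  · have h1 : (c ^ m) ^ r = 1 := by
      rw [← pow_mul]
      apply orderOf_dvd_iff_pow_eq_one.1
      rw [hjr]
      exact Nat.mul_dvd_mul_right ((Nat.modEq_zero_iff_dvd).1 hm1) r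
    exact Odd.of_dvd_nat hr (orderOf_dvd_of_pow_eq_one h1)
  · rw [map_pow]
    have hd : orderOf (π c) ∣ r := by
      have h1 : orderOf (π c) ∣ 2 ^ j * r := hjr ▸ orderOf_map_dvd π c
      exact Nat.Coprime.dvd_of_dvd_mul_left
        (Nat.Coprime.pow_right j (Nat.coprime_two_right.2 hc)) h1
    have h2 : m ≡ 1 [MOD orderOf (π c)] := hm2.of_dvd hd
    have := (pow_eq_pow_iff_modEq (x := π c)).2 h2
    rwa [pow_one] at this

/-- **All elements of `Q`** if some element of odd order is fixed point free on `Q / ⟨z⟩`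
(and `Q` is not of order two). -/
theorem isP_mem_extra (h : ES Q z) [Finite Q] {a : H} (ha : Odd (orderOf a))
    (hfix : ∀ x ∈ Q, (a * x * a⁻¹ = x ∨ a * x * a⁻¹ = x * z) → x = 1 ∨ x = z)
    (hne : ∃ x ∈ Q, ¬ (x = 1 ∨ x = z)) {q : H} (hq : q ∈ Q) : IsP 2 q := by
  classical
  by_cases hq1 : q = 1
  · rw [hq1]; exact isP_one
  by_cases hqz : q = z
  · -- `z` is a square or a commutator of two non-commuting elements
    subst hqz
    obtain ⟨x, hx, hx1⟩ := hne
    obtain ⟨y, hy, hxy⟩ : ∃ y ∈ Q, ¬ (x * y = y * x) := by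
      by_contra hno
      push Not at hno
      exact hx1 (h.nd x hx hno)
    have hz := (h.comm x hx y hy).resolve_left hxy
    -- among `x`, `y`, `x y` one has square `z`
    rcases h.pow x hx with e1 | e1
    · rcases h.pow y hy with e2 | e2
      · refine ⟨x * y, 1, ?_⟩
        have : x * y * (x * y) = q := by
          calc x * y * (x * y) = x * y * (y * x * q) := by rw [hz]
            _ = x * (y * y) * x * q := by group
            _ = q := by rw [e2, mul_one, e1, one_mul]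
        rw [pow_two, this]; simp
      · exact ⟨y, 1, by rw [pow_two, e2]; simp⟩
    · exact ⟨x, 1, by rw [pow_two, e1]; simp⟩
  · obtain ⟨q₁, h₁, q₂, h₂, ζ, hζ, e⟩ := h.step_mod (a := a) (b := 1) (c := q)
      (FPz.of_left h 1 hfix) (by simpa using hq)
    -- `q ζ = q₁ (a q₂ a⁻¹) q₁⁻¹ q₂⁻¹ = [a, q₂]` up to `z`
    obtain ⟨ξ, hξ, e1⟩ := h.conj_eq h₁ (h.conj_mem h₂ a)
    have e2 : q * ζ = a * q₂ * a⁻¹ * ξ * q₂⁻¹ := by
      rw [e]
      calc q₁ * a * (q₂ * 1) * (q₁ * a)⁻¹ * (q₂ * 1)⁻¹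
          = (q₁ * (a * q₂ * a⁻¹) * q₁⁻¹) * q₂⁻¹ := by group
        _ = a * q₂ * a⁻¹ * ξ * q₂⁻¹ := by rw [e1]
    have e3 : q * (ζ * ξ) = a * q₂ * a⁻¹ * q₂⁻¹ := by
      have h1 := h.zc hξ q₂⁻¹
      have h2 := h.zi hξ
      calc q * (ζ * ξ) = (q * ζ) * ξ := by group
        _ = a * q₂ * a⁻¹ * ξ * q₂⁻¹ * ξ := by rw [e2]
        _ = a * q₂ * a⁻¹ * (ξ * (q₂⁻¹ * ξ)) := by group
        _ = a * q₂ * a⁻¹ * (ξ * (ξ * q₂⁻¹)) := by rw [h1]
        _ = a * q₂ * a⁻¹ * (ξ * ξ) * q₂⁻¹ := by group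
        _ = a * q₂ * a⁻¹ * (ξ * ξ⁻¹) * q₂⁻¹ := by rw [h2]
        _ = _ := by group
    have h4 : IsP 2 (q * (ζ * ξ)) := by
      rw [e3]
      exact isP_of_comm (by rw [Nat.coprime_two_right]; exact ha)
    rcases h.zz hζ hξ with e4 | e4
    · rwa [e4, mul_one] at h4
    · rw [e4] at h4
      obtain ⟨y, hy, hyq⟩ : ∃ y ∈ Q, ¬ (q * y = y * q) := by
        by_contra hno
        push Not at hno
        rcases h.nd q hq hno with h5 | h5
        · exact hq1 h5
        · exact hqz h5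
      have e5 : q * y = y * q * z := (h.comm q hq y hy).resolve_left hyq
      have e6 : y⁻¹ * (q * z) * y⁻¹⁻¹ = q := by
        rw [inv_inv]
        calc y⁻¹ * (q * z) * y = y⁻¹ * (q * (z * y)) := by group
          _ = y⁻¹ * (q * y * z) := by rw [← h.central y]; group
          _ = y⁻¹ * (y * q * z * z) := by rw [e5]
          _ = q * (z * z) := by group
          _ = q := by rw [h.sq, mul_one]
      have h7 := h4.conj y⁻¹
      rwa [e6] at h7

end

end Cfsg.Agent.H134.Sq
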